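import Mathlib
import Cfsg.Agent.Lib.Helper44.FW.Defs
import Cfsg.Agent.S3209

/-!
# Project FW (S3211), package [HCONJ]

All involutions of `C(j)` other than `j` are conjugate in `C(j)`: they lie in `L₁L₂` by
`Invol`, and S3209 gives a single class of non-central involutions there.
-/

set_option autoImplicit false

namespace Cfsg.Agent.Lib.Helper34.FW

open Cfsg.Agent.Lib.Helper44.FW

universe u v w

theorem orderOf_two_of_sq {G : Type u} [Group G] {s : G} (h2 : s ^ 2 = 1) (h1 : s ≠ 1) :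
    orderOf s = 2 :=
  orderOf_eq_prime h2 h1

theorem pkgHConj : PkgHConj.{u, v, w} := by
  intro G _ _ F₁ _ _ F₂ _ _ hF₁ hF₂ L₁ L₂ he₁ he₂ j n cfg hinv
  obtain ⟨e₁⟩ := he₁
  obtain ⟨e₂⟩ := he₂
  obtain ⟨x, hxY, hx2, hxj, hall⟩ :=
    Cfsg.Agent.S3209.result hF₁ hF₂ L₁ L₂ e₁ e₂ cfg.comm j cfg.ord cfg.meet
  intro s hs hs2 hs1 hsj t ht ht2 ht1 htj
  have memY : ∀ r ∈ Subgroup.centralizer ({j} : Set G), r ^ 2 = 1 → r ≠ 1 → r ≠ j →
      r ∈ L₁ ⊔ L₂ := by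
    intro r hr hr2 hr1 hrj
    obtain ⟨a, ha, b, hb, rfl, -, -⟩ := hinv r hr hr2 hr1 hrj
    exact Subgroup.mul_mem _ (Subgroup.mem_sup_left ha) (Subgroup.mem_sup_right hb)
  have hsY := memY s hs hs2 hs1 hsj
  have htY := memY t ht ht2 ht1 htj
  rcases hall s hsY (orderOf_two_of_sq hs2 hs1) with h | ⟨g₁, hg₁, hg₁s⟩
  · exact absurd h hsj
  rcases hall t htY (orderOf_two_of_sq ht2 ht1) with h | ⟨g₂, hg₂, hg₂t⟩
  · exact absurd h htj
  refine ⟨g₂ * g₁⁻¹, cfg.le (Subgroup.mul_mem _ hg₂ (Subgroup.inv_mem _ hg₁)), ?_⟩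
  rw [← hg₁s, ← hg₂t]
  group

end Cfsg.Agent.Lib.Helper34.FW
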